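import Cfsg.Agent.H261.NotU
import Cfsg.Agent.H838.PsuPure

/-!
# `PSU_6(2)` (helper261)
-/

set_option autoImplicit false

namespace Cfsg.Agent.H261

open Subgroup Cfsg

variable {G : Type*} [Group G] {Z Q : Subgroup G} {z a1 b1 a2 b2 : G} {P1 P2 : Subgroup G}

/-- `PSU_6(2)` is excluded if `Z` is not weakly closed in `Q` -/
theorem Dec.not_psu [Finite G] (d : Dec Z Q z a1 b1 a2 b2 P1 P2) {L : Subgroup G} (hL : L.Normal) (hQL : Q ≤ L)
    (hY : ∃ g : G, ∃ y ∈ Z, g * y * g⁻¹ ∈ Q ∧ g * y * g⁻¹ ∉ Z) {F : Type} [Field F] [Fintype F]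
    (hF : Fintype.card F = 2 ^ 2) (e : ↥L ≃* PSU 6 F 2) : False := by
  have h1 := H343.ord_psu (n := 6) hF (by norm_num)
  have h2 : 9 * Nat.card (PSU 6 F 2) = 82771476480 := by
    rw [show (9 : ℕ) = OrdDiv.fPSU.den 6 2 by decide, h1]
    decide +kernel
  rw [← Nat.card_congr e.toEquiv] at h2
  have h3 : Nat.card ↥L = 9196830720 := by omega
  exact d.not_pure hL hQL (by rw [h3]; norm_num) (by rw [h3]; norm_num) hY e (H838.PsuPure.psu_pure hF)

end Cfsg.Agent.H261
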